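import Cfsg.Agent.Mrg.Omega.Lie.HeisF
import Cfsg.Agent.H203.LSDef

/-!
# `F₄(2)`: every representation in characteristic `≠ 2` not killing the long root elements has degree `≥ 448`
(helper733, for S4816)

`Q = O₂(C(z)) = 2^(1+8) × 2^6`, `z` a long root element: `Z(Q) = 2^7` is generated by `z` and six short root elements; the
Levi complement has two orbits (`28`, `36`) on the characters of `Z(Q)` with `z ↦ -1`; the four pairs of long root
elements give the factor `16`.
-/

set_option autoImplicit false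
set_option linter.dupNamespace false

universe u v w

namespace Cfsg.Agent.H733.RIM.FFour

/-! ### The combinatorics: the orbits on `64, …, 127` -/

/-- the central root elements; number 6 is `z` -/
def cI : List ℕ := [29, 44, 36, 40, 38, 39, 47]

/-- generators of the Levi complement -/
def gI : List ℕ := [33, 27, 25, 14, 20, 22]

/-- the first halves of the long pairs -/
def aI : List ℕ := [24, 26, 31, 32]

/-- the second halves -/
def bI : List ℕ := [46, 45, 43, 42]

/-- the action of the generators on the central elements: `c_i ^ g_l = c_i * ∏ c_k` -/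
def tl : List (List (List ℕ)) :=
  [[[2], [], [], [1], [], [], []],
   [[], [], [4], [], [], [3], []],
   [[], [], [], [], [5, 6], [], []],
   [[], [3], [0], [], [], [], []],
   [[], [], [], [5], [2], [], []],
   [[], [], [], [], [], [4, 6], []]]

/-- the extra factors -/
def tw (l i : ℕ) : List ℕ := (tl.getD l []).getD i []

/-- the sign of a product -/
def par (N : ℕ) : List ℕ → Bool
  | [] => false
  | k :: L => xor (N.testBit k) (par N L)

/-- the action on the characters -/
def T (l N : ℕ) : ℕ := ((List.range 7).map fun i => if par N (i :: tw l i) then 2 ^ i else 0).sum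

/-- the direction to the root of the orbit -/
def dn : List ℕ := [0, 2, 0, 0, 2, 2, 5, 3, 1, 1, 3, 0, 0, 3, 0, 3, 2, 1, 0, 2, 1, 0, 1, 1, 2, 1, 3, 2, 0, 3, 0, 3, 5,
  5, 0, 5, 5, 5, 4, 5, 4, 4, 3, 1, 0, 3, 1, 3, 1, 1, 1, 0, 4, 4, 0, 0, 1, 3, 1, 3, 4, 4, 3, 1]

/-- one step to the root of the orbit -/
def st (N : ℕ) : ℕ := if N = 64 ∨ N = 67 then N else T (dn.getD (N - 64) 0) N

/-- the root of the orbit -/
def root (N : ℕ) : ℕ := st (st (st (st (st (st (st (st (st N))))))))

theorem T_ok : ∀ l < 6, ∀ N < 128, 64 ≤ N → (64 ≤ T l N ∧ T l N < 128) ∧ T l (T l N) = N ∧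
    ∀ i < 7, (T l N).testBit i = par N (i :: tw l i) := by decide +kernel

theorem dn_ok : ∀ N < 64, dn.getD N 0 < 6 := by decide +kernel

theorem st_ok : ∀ N < 128, 64 ≤ N → (64 ≤ st N ∧ st N < 128) := by decide +kernel

theorem root_ok : ∀ N < 128, 64 ≤ N → root N = 64 ∨ root N = 67 := by decide +kernel

theorem card_a : 28 ≤ ((Finset.Ico 64 128).filter fun N => root N = 64).card := by decide +kernel

theorem card_b : 28 ≤ ((Finset.Ico 64 128).filter fun N => root N = 67).card := by decide +kernel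

/-- a nonempty closed set of characters has at least 28 elements -/
theorem card_ge {E : Set ℕ} (hE : ∀ N ∈ E, 64 ≤ N ∧ N < 128) (hne : E.Nonempty) (hT : ∀ l < 6, ∀ N ∈ E, T l N ∈ E) :
    ∃ s : Finset ℕ, (∀ N ∈ s, N ∈ E) ∧ 28 ≤ s.card := by
  have h1 : ∀ l < 6, ∀ N, 64 ≤ N → N < 128 → (T l N ∈ E ↔ N ∈ E) := by
    intro l hl N h64 h128
    refine ⟨fun h => ?_, hT l hl N⟩
    have := hT l hl _ h
    rwa [(T_ok l hl N h128 h64).2.1] at this
  have h2 : ∀ N, 64 ≤ N → N < 128 → (st N ∈ E ↔ N ∈ E) := by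
    intro N h64 h128
    unfold st
    split_ifs with h
    · exact Iff.rfl
    · exact h1 _ (dn_ok _ (by omega)) N h64 h128
  have h3 : ∀ N, 64 ≤ N → N < 128 → (root N ∈ E ↔ N ∈ E) := by
    intro N h64 h128
    have s1 := st_ok N h128 h64
    have s2 := st_ok _ s1.2 s1.1
    have s3 := st_ok _ s2.2 s2.1
    have s4 := st_ok _ s3.2 s3.1
    have s5 := st_ok _ s4.2 s4.1
    have s6 := st_ok _ s5.2 s5.1
    have s7 := st_ok _ s6.2 s6.1
    have s8 := st_ok _ s7.2 s7.1
    unfold root
    rw [h2 _ s8.1 s8.2, h2 _ s7.1 s7.2, h2 _ s6.1 s6.2, h2 _ s5.1 s5.2, h2 _ s4.1 s4.2, h2 _ s3.1 s3.2,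
      h2 _ s2.1 s2.2, h2 _ s1.1 s1.2, h2 _ h64 h128]
  obtain ⟨N, hN⟩ := hne
  obtain ⟨h64, h128⟩ := hE N hN
  have hr := (h3 N h64 h128).2 hN
  rcases root_ok N h128 h64 with h | h
  · refine ⟨_, fun M hM => ?_, card_a⟩
    rw [Finset.mem_filter, Finset.mem_Ico] at hM
    rw [← h3 M hM.1.1 hM.1.2, hM.2, ← h]
    exact hr
  · refine ⟨_, fun M hM => ?_, card_b⟩
    rw [Finset.mem_filter, Finset.mem_Ico] at hM
    rw [← h3 M hM.1.1 hM.1.2, hM.2, ← h]
    exact hr

/-! ### Signs and weight vectors -/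

section rep

variable {S : Type u} [Group S] {k : Type v} [Field k] {V : Type w} [AddCommGroup V] [Module k V]
  (ρ : S →* (V →ₗ[k] V)) (y : ℕ → S)

/-- the sign -/
def sgn (k : Type v) [Field k] (b : Bool) : k := if b then -1 else 1

theorem sgn_xor (a b : Bool) : sgn k (xor a b) = sgn k a * sgn k b := by
  cases a <;> cases b <;> simp [sgn]

theorem sgn_inj (h2 : (2 : k) ≠ 0) {a b : Bool} (h : sgn k a = sgn k b) : a = b := by
  cases a <;> cases b <;> simp only [sgn] at h ⊢
  · simp only [Bool.false_eq_true, if_false, if_true] at h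
    exact absurd (by linear_combination h : (2 : k) = 0) h2
  · simp only [Bool.false_eq_true, if_false, if_true] at h
    exact absurd (by linear_combination -h : (2 : k) = 0) h2

theorem sgn_sq (a : Bool) : sgn k a * sgn k a = 1 := by cases a <;> simp [sgn]

/-- `v` has the weight `N` for the central elements -/
def Wt (N : ℕ) (v : V) : Prop := ∀ i < 7, ρ (y (cI.getD i 0)) v = sgn k (N.testBit i) • v

variable {ρ y}

theorem Wt.prod {N : ℕ} {v : V} (h : Wt ρ y N v) : ∀ L : List ℕ, (∀ i ∈ L, i < 7) →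
    ρ ((L.map fun i => y (cI.getD i 0)).prod) v = sgn k (par N L) • v := by
  intro L
  induction L with
  | nil => intro _; simp [par, sgn]
  | cons a L ih =>
    intro hL
    rw [List.map_cons, List.prod_cons, map_mul, Module.End.mul_apply, ih fun i hi => hL i (List.mem_cons_of_mem _ hi),
      map_smul, h a (hL a List.mem_cons_self), smul_smul, par, sgn_xor, mul_comm]

/-- the eigenvectors of commuting involutions -/
theorem exists_eig (hsq : ∀ r, y r * y r = 1) : ∀ (L : List ℕ), (∀ i ∈ L, ∀ j ∈ L, y i * y j = y j * y i) →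
    ∀ v : V, v ≠ 0 → ∃ v' : V, v' ≠ 0 ∧ (∀ i ∈ L, ∃ b : Bool, ρ (y i) v' = sgn k b • v') ∧
      ∀ s : S, (∀ i ∈ L, s * y i = y i * s) → ∀ c : k, ρ s v = c • v → ρ s v' = c • v' := by
  intro L
  induction L with
  | nil => intro _ v hv; exact ⟨v, hv, by simp, fun s _ c h => h⟩
  | cons a L ih =>
    intro hL v hv
    obtain ⟨v', h0, h1, h2⟩ := ih (fun i hi j hj => hL i (List.mem_cons_of_mem _ hi) j (List.mem_cons_of_mem _ hj)) v hv
    have hcm : ∀ s : S, s * y a = y a * s → ρ s (ρ (y a) v') = ρ (y a) (ρ s v') := fun s hs => by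
      rw [← Module.End.mul_apply, ← Module.End.mul_apply, ← map_mul, ← map_mul, hs]
    by_cases hz : v' + ρ (y a) v' = 0
    · refine ⟨v', h0, ?_, fun s hs c h => h2 s (fun i hi => hs i (List.mem_cons_of_mem _ hi)) c h⟩
      intro i hi
      rcases List.mem_cons.1 hi with rfl | hi
      · refine ⟨true, ?_⟩
        rw [sgn, if_pos rfl, neg_one_smul]
        exact eq_neg_of_add_eq_zero_right hz
      · exact h1 i hi
    · refine ⟨v' + ρ (y a) v', hz, ?_, ?_⟩
      · intro i hi
        rcases List.mem_cons.1 hi with rfl | hi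
        · refine ⟨false, ?_⟩
          rw [sgn, if_neg (by simp), one_smul, map_add, ← Module.End.mul_apply, ← map_mul, hsq, map_one,
            Module.End.one_apply, add_comm]
        · obtain ⟨b, hb⟩ := h1 i hi
          refine ⟨b, ?_⟩
          rw [map_add, hcm _ (hL i (List.mem_cons_of_mem _ hi) a List.mem_cons_self), hb, map_smul, smul_add]
      · intro s hs c h
        have h3 := h2 s (fun i hi => hs i (List.mem_cons_of_mem _ hi)) c h
        rw [map_add, hcm s (hs a List.mem_cons_self), h3, map_smul, smul_add]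

end rep

/-- the relations -/
structure Rel {S : Type u} [Group S] (y : ℕ → S) : Prop where
  sq : ∀ r, y r * y r = 1
  cc : ∀ i < 7, ∀ j < 7, y (cI.getD i 0) * y (cI.getD j 0) = y (cI.getD j 0) * y (cI.getD i 0)
  aa : ∀ i < 4, ∀ j < 4, y (aI.getD i 0) * y (aI.getD j 0) = y (aI.getD j 0) * y (aI.getD i 0)
  ac : ∀ i < 4, ∀ j < 7, y (aI.getD i 0) * y (cI.getD j 0) = y (cI.getD j 0) * y (aI.getD i 0)
  bc : ∀ i < 4, ∀ j < 7, y (bI.getD i 0) * y (cI.getD j 0) = y (cI.getD j 0) * y (bI.getD i 0)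
  ab : ∀ i < 4, ∀ j < 4, i ≠ j → y (aI.getD i 0) * y (bI.getD j 0) = y (bI.getD j 0) * y (aI.getD i 0)
  abz : ∀ i < 4, y (aI.getD i 0) * y (bI.getD i 0) = y (bI.getD i 0) * y (aI.getD i 0) * y 47
  cg : ∀ l < 6, ∀ i < 7, y (cI.getD i 0) * y (gI.getD l 0) =
    y (gI.getD l 0) * ((i :: tw l i).map fun j => y (cI.getD j 0)).prod

theorem tw_lt : ∀ l < 6, ∀ i < 7, ∀ j ∈ i :: tw l i, j < 7 := by decide +kernel

section main

variable {S : Type u} [Group S] {y : ℕ → S} (R : Rel y) {k : Type v} [Field k] (h2 : (2 : k) ≠ 0) {V : Type w}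
  [AddCommGroup V] [Module k V] (ρ : S →* (V →ₗ[k] V))

theorem ne_zero {s : S} {v : V} (hv : v ≠ 0) : ρ s v ≠ 0 := by
  intro h
  apply hv
  have : ρ s⁻¹ (ρ s v) = v := by rw [← Module.End.mul_apply, ← map_mul, inv_mul_cancel, map_one, Module.End.one_apply]
  rw [← this, h, map_zero]

include R

/-- the generators move the weights -/
theorem move {l : ℕ} (hl : l < 6) {N : ℕ} (h64 : 64 ≤ N) (h128 : N < 128) {v : V} (h : Wt ρ y N v) :
    Wt ρ y (T l N) (ρ (y (gI.getD l 0)) v) := by
  intro i hi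
  rw [(T_ok l hl N h128 h64).2.2 i hi, ← Module.End.mul_apply, ← map_mul, R.cg l hl i hi, map_mul,
    Module.End.mul_apply, h.prod _ (tw_lt l hl i hi), map_smul]

/-- the weight vectors with prescribed signs for the long pairs -/
theorem exists_ab {N : ℕ} (h64 : 64 ≤ N) (h128 : N < 128) {v : V} (hv : v ≠ 0) (h : Wt ρ y N v) (D : Fin 4 → Bool) :
    ∃ w : V, w ≠ 0 ∧ Wt ρ y N w ∧ ∀ i : Fin 4, ρ (y (aI.getD i 0)) w = sgn k (D i) • w := by
  -- a common eigenvector
  have key : ∃ (d : Fin 4 → Bool) (w : V), w ≠ 0 ∧ Wt ρ y N w ∧ ∀ i : Fin 4, ρ (y (aI.getD i 0)) w = sgn k (d i) • w := by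
    obtain ⟨w, hw, h1, h3⟩ := exists_eig (ρ := ρ) (k := k) R.sq aI (by
      intro i hi j hj
      obtain ⟨a, ha, rfl⟩ := List.getElem_of_mem hi
      obtain ⟨b, hb, rfl⟩ := List.getElem_of_mem hj
      have := R.aa a ha b hb
      rwa [List.getD_eq_getElem _ _ ha, List.getD_eq_getElem _ _ hb] at this) v hv
    choose! b hb using h1
    refine ⟨fun i => b (aI.getD i 0), w, hw, ?_, ?_⟩
    · intro i hi
      refine h3 _ ?_ _ (h i hi)
      intro j hj
      obtain ⟨a, ha, rfl⟩ := List.getElem_of_mem hj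
      have := R.ac a ha i hi
      rw [List.getD_eq_getElem _ _ ha] at this
      exact this.symm
    · intro i
      apply hb
      rw [List.getD_eq_getElem _ _ i.2]
      exact List.getElem_mem _
  obtain ⟨d, w, hw, h1, h3⟩ := key
  -- the flips
  have hz : ∀ u : V, Wt ρ y N u → ρ (y 47) u = -u := by
    intro u hu
    have h4 := hu 6 (by norm_num)
    have h5 : N.testBit 6 = true := by
      have : ∀ N < 128, 64 ≤ N → N.testBit 6 = true := by decide +kernel
      exact this N h128 h64
    rw [h5, sgn, if_pos rfl, neg_one_smul] at h4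
    exact h4
  have flip : ∀ (j : Fin 4) (d : Fin 4 → Bool), (∃ w : V, w ≠ 0 ∧ Wt ρ y N w ∧
      ∀ i : Fin 4, ρ (y (aI.getD i 0)) w = sgn k (d i) • w) → ∃ w : V, w ≠ 0 ∧ Wt ρ y N w ∧
      ∀ i : Fin 4, ρ (y (aI.getD i 0)) w = sgn k (Function.update d j (D j) i) • w := by
    rintro j d ⟨w, hw, h1, h3⟩
    by_cases hd : D j = d j
    · rw [hd, Function.update_eq_self]
      exact ⟨w, hw, h1, h3⟩
    · refine ⟨ρ (y (bI.getD j 0)) w, ne_zero ρ hw, ?_, ?_⟩
      · intro i hi
        rw [← Module.End.mul_apply, ← map_mul, ← R.bc j j.2 i hi, map_mul, Module.End.mul_apply, h1 i hi, map_smul]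
      · intro i
        by_cases hij : i = j
        · subst hij
          rw [Function.update_self, ← Module.End.mul_apply, ← map_mul, R.abz i i.2, map_mul, map_mul,
            Module.End.mul_apply, Module.End.mul_apply, hz w h1, map_neg, h3, map_neg, map_smul, ← neg_smul]
          congr 1
          cases hb : D i <;> cases hb' : d i <;> simp_all [sgn]
        · rw [Function.update_of_ne hij, ← Module.End.mul_apply, ← map_mul,
            R.ab i i.2 j j.2 (fun h => hij (Fin.ext h)), map_mul, Module.End.mul_apply, h3, map_smul]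
  have f0 := flip 0 d ⟨w, hw, h1, h3⟩
  have f1 := flip 1 _ f0
  have f2 := flip 2 _ f1
  have f3 := flip 3 _ f2
  have e : Function.update (Function.update (Function.update (Function.update d 0 (D 0)) 1 (D 1)) 2 (D 2)) 3 (D 3) = D := by
    funext i
    fin_cases i <;> rfl
  rw [e] at f3
  exact f3

include h2

/-- **The bound.** -/
theorem bound [FiniteDimensional k V] (hz : ρ (y 47) ≠ 1) : 448 ≤ Module.finrank k V := by
  classical
  let E : Set ℕ := {N | (64 ≤ N ∧ N < 128) ∧ ∃ v : V, v ≠ 0 ∧ Wt ρ y N v}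
  have hne : E.Nonempty := by
    obtain ⟨u, hu⟩ : ∃ u, ρ (y 47) u ≠ u := by
      by_contra hcon
      push Not at hcon
      exact hz (LinearMap.ext hcon)
    have hv : u - ρ (y 47) u ≠ 0 := fun h => hu (sub_eq_zero.1 h).symm
    have hvz : ρ (y 47) (u - ρ (y 47) u) = (-1 : k) • (u - ρ (y 47) u) := by
      rw [map_sub, ← Module.End.mul_apply, ← map_mul, R.sq, map_one, Module.End.one_apply, neg_one_smul, neg_sub]
    obtain ⟨w, hw, h1, h3⟩ := exists_eig (ρ := ρ) (k := k) R.sq cI (by
      intro i hi j hj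
      obtain ⟨a, ha, rfl⟩ := List.getElem_of_mem hi
      obtain ⟨b, hb, rfl⟩ := List.getElem_of_mem hj
      have := R.cc a ha b hb
      rwa [List.getD_eq_getElem _ _ ha, List.getD_eq_getElem _ _ hb] at this) _ hv
    have h47 := h3 (y 47) (by
      intro i hi
      obtain ⟨a, ha, rfl⟩ := List.getElem_of_mem hi
      have := R.cc 6 (by norm_num) a ha
      rw [List.getD_eq_getElem _ _ ha] at this
      exact this) _ hvz
    choose! b hb using h1
    let N := Nat.ofBits (fun i : Fin 7 => b (cI.getD i 0))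
    have hbit : ∀ i (hi : i < 7), N.testBit i = b (cI.getD i 0) := fun i hi => Nat.testBit_ofBits_lt _ _ hi
    have hW : Wt ρ y N w := by
      intro i hi
      rw [hbit i hi]
      apply hb
      rw [List.getD_eq_getElem _ _ hi]
      exact List.getElem_mem _
    have h6 : N.testBit 6 = true := by
      rw [hbit 6 (by norm_num)]
      have h4 := hb 47 (by decide)
      rw [h47] at h4
      have h5 : sgn k true = sgn k (b 47) := by
        have h6 : (sgn k true - sgn k (b 47)) • w = 0 := by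
          rw [sub_smul, sub_eq_zero, ← h4]
          simp [sgn]
        exact sub_eq_zero.1 ((smul_eq_zero.1 h6).resolve_right hw)
      exact (sgn_inj h2 h5).symm
    refine ⟨N, ⟨?_, Nat.ofBits_lt_two_pow _⟩, w, hw, hW⟩
    by_contra hcon
    rw [Nat.testBit_lt_two_pow (by omega : N < 2 ^ 6)] at h6
    exact absurd h6 (by simp)
  obtain ⟨s, hs, hcard⟩ := card_ge (E := E) (fun N hN => hN.1) hne (by
    rintro l hl N ⟨⟨h64, h128⟩, v, hv, hW⟩
    exact ⟨(T_ok l hl N h128 h64).1, _, ne_zero ρ hv, move R ρ hl h64 h128 hW⟩)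
  -- the weight vectors
  have hw : ∀ x : s × (Fin 4 → Bool), ∃ w : V, w ≠ 0 ∧ Wt ρ y x.1 w ∧
      ∀ i : Fin 4, ρ (y (aI.getD i 0)) w = sgn k (x.2 i) • w := by
    rintro ⟨⟨N, hN⟩, D⟩
    obtain ⟨⟨h64, h128⟩, v, hv, hW⟩ := hs N hN
    exact exists_ab R ρ h64 h128 hv hW D
  choose f hf using hw
  have key := Cfsg.Agent.H203.LS.card_le_of_weights (ι := s × (Fin 4 → Bool)) (J := Fin 7 ⊕ Fin 4)
    (Sum.elim (fun i => ρ (y (cI.getD i 0))) (fun i => ρ (y (aI.getD i 0)))) f
    (fun x => Sum.elim (fun i => sgn k ((x.1 : ℕ).testBit i)) (fun i => sgn k (x.2 i)))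
    (fun x => (hf x).1) ?_ ?_
  · rw [Nat.card_prod, Nat.card_eq_fintype_card, Nat.card_eq_fintype_card, Fintype.card_coe, Fintype.card_fun,
      Fintype.card_bool, Fintype.card_fin] at key
    omega
  · rintro x (i | i)
    · exact (hf x).2.1 i i.2
    · exact (hf x).2.2 i
  · rintro ⟨⟨N, hN⟩, D⟩ ⟨⟨N', hN'⟩, D'⟩ h
    have hNN : N = N' := by
      apply Nat.eq_of_testBit_eq
      intro i
      by_cases hi : i < 7
      · exact sgn_inj h2 (congrFun h (Sum.inl ⟨i, hi⟩))
      · have l1 := (hs N hN).1.2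
        have l2 := (hs N' hN').1.2
        have h7 : 2 ^ 7 ≤ 2 ^ i := Nat.pow_le_pow_right (by norm_num) (by omega)
        rw [Nat.testBit_lt_two_pow (by omega), Nat.testBit_lt_two_pow (by omega)]
    subst hNN
    have hDD : D = D' := funext fun i => sgn_inj h2 (congrFun h (Sum.inr i))
    rw [hDD]

end main

/-! ### The group `F₄(2)` -/

section chev

open Cfsg.Lie Cfsg.Lie.ChevalleyDatum Cfsg.Agent.ChevalleyStructure Cfsg.Agent.ChevalleyStructure.Elts
open Cfsg.Agent.Omega.TwoF.ChevHeis (xK xK_add xK_zero xK_word)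

/-- the factors of the commutator in characteristic two -/
def odd (r s : ℕ) : List ℕ := ((chevF4.commTerms r s).filter fun c => c.2.1 % 2 != 0).map fun c => c.1

/-- the commutator check -/
def rel2 (r s : ℕ) (L : List ℕ) : Bool :=
  decide (r < 48) && decide (s < 48) && decide (s ≠ r) && decide (s ≠ chevF4.neg r) && decide (odd r s = L)

/-- the commutation check -/
def cm2 (r s : ℕ) : Bool := decide (r = s) || rel2 r s []

variable {F : Type u} [Field F] (hD : InList chevF4)

include hD in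
theorem word_eq (h2 : (2 : F) = 0) (r s : ℕ) :
    (⟨wordG hD (chevF4.commWord F r s 1 1), wordG_mem_group hD _⟩ : chevF4.group F) =
      ((odd r s).map fun i => xK hD i (1 : F)).prod := by
  have h1 : (-1 : F) = 1 := by linear_combination -h2
  have hint : ∀ m : ℤ, (m : F) = if m % 2 != 0 then 1 else 0 := by
    intro m
    have h3 := Int.emod_add_mul_ediv m 2
    have h4 : (m : F) = ((m % 2 : ℤ) : F) := by
      conv_lhs => rw [← h3]
      push_cast
      rw [h2, zero_mul, add_zero]
    rw [h4]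
    rcases Int.emod_two_eq_zero_or_one m with h | h <;> rw [h] <;> simp
  have key : ∀ L : List (ℕ × ℤ × ℕ × ℕ),
      (⟨wordG hD (L.map fun c => (c.1, (c.2.1 : F) * (-1) ^ c.2.2.1 * 1 ^ c.2.2.2)), wordG_mem_group hD _⟩ :
        chevF4.group F) = (((L.filter fun c => c.2.1 % 2 != 0).map fun c => c.1).map fun i => xK hD i (1 : F)).prod := by
    intro L
    induction L with
    | nil => apply Subtype.ext; rfl
    | cons c L ih =>
      have e1 : (⟨wordG hD ((c :: L).map fun c => (c.1, (c.2.1 : F) * (-1) ^ c.2.2.1 * 1 ^ c.2.2.2)),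
          wordG_mem_group hD _⟩ : chevF4.group F) = xK hD c.1 (c.2.1 : F) *
          ⟨wordG hD (L.map fun c => (c.1, (c.2.1 : F) * (-1) ^ c.2.2.1 * 1 ^ c.2.2.2)), wordG_mem_group hD _⟩ := by
        have hc : (c.2.1 : F) * (-1) ^ c.2.2.1 * 1 ^ c.2.2.2 = c.2.1 := by rw [h1, one_pow, one_pow, mul_one, mul_one]
        apply Subtype.ext
        refine (wordG_cons hD (c.1, (c.2.1 : F) * (-1) ^ c.2.2.1 * 1 ^ c.2.2.2) _).trans ?_
        rw [hc]
        rfl
      rw [e1, ih, hint]
      by_cases h : (c.2.1 % 2 != 0) = true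
      · rw [if_pos h, List.filter_cons_of_pos (p := fun c : ℕ × ℤ × ℕ × ℕ => c.2.1 % 2 != 0) h, List.map_cons, List.map_cons,
          List.prod_cons]
      · rw [if_neg h, xK_zero, one_mul, List.filter_cons_of_neg (p := fun c : ℕ × ℤ × ℕ × ℕ => c.2.1 % 2 != 0) h]
  exact key _

variable (h2 : (2 : F) = 0)

include h2

theorem rel_of {r s : ℕ} {L : List ℕ} (h : rel2 r s L = true) :
    xK hD s (1 : F) * xK hD r 1 = xK hD r 1 * (xK hD s 1 * (L.map fun i => xK hD i (1 : F)).prod) := by
  unfold rel2 at h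
  simp only [Bool.and_eq_true, decide_eq_true_eq] at h
  obtain ⟨⟨⟨⟨hr, hs⟩, h1⟩, h3⟩, h4⟩ := h
  have hn : chevF4.nroots = 48 := by decide +kernel
  rw [xK_word hD (by rw [hn]; exact hr) (by rw [hn]; exact hs) h1 h3, word_eq hD h2, h4, mul_assoc]

theorem cm_of {r s : ℕ} (h : cm2 r s = true) : xK hD s (1 : F) * xK hD r 1 = xK hD r 1 * xK hD s 1 := by
  unfold cm2 at h
  simp only [Bool.or_eq_true, decide_eq_true_eq] at h
  rcases h with h | h
  · rw [h]
  · have := rel_of hD h2 h
    rwa [List.map_nil, List.prod_nil, mul_one] at this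

/-- **The relations hold in `F₄(2)`** (and for the elements `x_r(1)` of `F₄(2^a)`). -/
theorem rel : Rel fun r => xK hD r (1 : F) := by
  refine ⟨?_, ?_, ?_, ?_, ?_, ?_, ?_, ?_⟩
  · intro r
    rw [← xK_add, one_add_one_eq_two, h2, xK_zero]
  · have key : ∀ i < 7, ∀ j < 7, cm2 (cI.getD j 0) (cI.getD i 0) = true := by decide +kernel
    exact fun i hi j hj => cm_of hD h2 (key i hi j hj)
  · have key : ∀ i < 4, ∀ j < 4, cm2 (aI.getD j 0) (aI.getD i 0) = true := by decide +kernel
    exact fun i hi j hj => cm_of hD h2 (key i hi j hj)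
  · have key : ∀ i < 4, ∀ j < 7, cm2 (cI.getD j 0) (aI.getD i 0) = true := by decide +kernel
    exact fun i hi j hj => cm_of hD h2 (key i hi j hj)
  · have key : ∀ i < 4, ∀ j < 7, cm2 (cI.getD j 0) (bI.getD i 0) = true := by decide +kernel
    exact fun i hi j hj => cm_of hD h2 (key i hi j hj)
  · have key : ∀ i < 4, ∀ j < 4, i ≠ j → cm2 (bI.getD j 0) (aI.getD i 0) = true := by decide +kernel
    exact fun i hi j hj hij => cm_of hD h2 (key i hi j hj hij)
  · have key : ∀ i < 4, rel2 (bI.getD i 0) (aI.getD i 0) [47] = true := by decide +kernel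
    intro i hi
    have := rel_of hD h2 (F := F) (key i hi)
    rw [List.map_cons, List.map_nil, List.prod_cons, List.prod_nil, mul_one, ← mul_assoc] at this
    exact this
  · have key : ∀ l < 6, ∀ i < 7, rel2 (gI.getD l 0) (cI.getD i 0) ((tw l i).map fun j => cI.getD j 0) = true := by
      decide +kernel
    intro l hl i hi
    have := rel_of hD h2 (F := F) (key l hl i hi)
    rw [List.map_map] at this
    rw [List.map_cons, List.prod_cons]
    exact this

include hD in
/-- **The bound for `F₄(2)`.** -/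
theorem bound_chev {k : Type v} [Field k] (hk : (2 : k) ≠ 0) {V : Type w} [AddCommGroup V] [Module k V]
    [FiniteDimensional k V] (ρ : chevF4.group F →* (V →ₗ[k] V)) (hρ : Function.Injective ρ) :
    448 ≤ Module.finrank k V := by
  refine bound (rel hD h2) hk ρ fun h => ?_
  have h1 : xK hD 47 (1 : F) = 1 := hρ (h.trans (map_one ρ).symm)
  have h3 : xG hD 47 (1 : F) = 1 := congrArg Subtype.val h1
  have hn : chevF4.nroots = 48 := by decide +kernel
  exact one_ne_zero ((xG_eq_one_iff hD (by rw [hn]; norm_num) (1 : F)).1 h3)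

end chev

end Cfsg.Agent.H733.RIM.FFour
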